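import Cfsg.Agent.R10.CliffWord
import Cfsg.Agent.H78.Pw.Base

/-!
# Pw (S2465) for the Lyons group: the elements of odd order of `2.A₁₁` (helper701)

* `pr_odd` : an element of odd order of `2.A₁₁` all whose cycles have length 3, 5 or 9 is a product of two elements of
  order prime to 6;
* `exists_inv` : a noncentral involution of `2.A₁₁` which is such a product.
The relations are decided by the Clifford words of `R10.CliffWord`.
-/

set_option autoImplicit false

namespace Cfsg.Agent.H701.Pw.LyWord

open Equiv Cfsg.Agent.R10.CliffWord Cfsg.Agent.R10.CliffSign Cfsg.Agent.SporRec.TwoAn Cfsg.Agent.H78.Pw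

abbrev W := List (Fin 11 × Fin 11)

/-- the permutation of a word -/
def wp (w : W) : Perm (Fin 11) := (w.map fun p => swap p.1 p.2).prod

theorem wp_apply (w : W) (x : Fin 11) : wp w x = pw w x := by
  induction w with
  | nil => rfl
  | cons p w ih =>
    have h1 : wp (p :: w) = swap p.1 p.2 * wp w := by rw [wp, List.map_cons, List.prod_cons]; rfl
    rw [h1, Perm.mul_apply, ih, swap_apply_def]
    rfl

/-- the check of the relations -/
def chkW (a b : W) (ka kb kc : ℕ) : Bool :=
  ok a && ok b && good (Eval.npow a ka ++ []) && good (Eval.npow b kb ++ []) && good (Eval.npow (a ++ b) kc ++ [])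

section

variable {C : Type*} [Group C] {K : Cover (Fin 11) C}

theorem val_pow_eq_one (e : Eval K) {w : W} (hw : ok w = true) {k : ℕ} (h : good (Eval.npow w k ++ []) = true) :
    e.val w ^ k = 1 := by
  rw [e.val_pow hw, ← e.val_nil]
  exact e.val_eq (Eval.ok_npow hw k) (by rfl) h

theorem π_val (e : Eval K) {w : W} (hw : ok w = true) : K.π (e.val w) = wp w := by
  ext x
  rw [e.π_val hw, wp_apply]

/-- the product of the two words -/
theorem chk_prod (e : Eval K) {a b : W} {ka kb kc : ℕ} (h : chkW a b ka kb kc = true) (h6a : ka.Coprime 6)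
    (h6b : kb.Coprime 6) :
    Pr 6 (e.val (a ++ b)) ∧ e.val (a ++ b) ^ kc = 1 ∧ K.π (e.val (a ++ b)) = wp (a ++ b) := by
  simp only [chkW, Bool.and_eq_true] at h
  obtain ⟨⟨⟨⟨h1, h2⟩, h3⟩, h4⟩, h5⟩ := h
  refine ⟨⟨e.val a, e.val b, (e.val_mul h1 h2).symm, ?_, ?_⟩, val_pow_eq_one e (ok_append h1 h2) h5,
    π_val e (ok_append h1 h2)⟩
  · exact Nat.Coprime.of_dvd_left (orderOf_dvd_of_pow_eq_one (val_pow_eq_one e h1 h3)) h6a
  · exact Nat.Coprime.of_dvd_left (orderOf_dvd_of_pow_eq_one (val_pow_eq_one e h2 h4)) h6b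

/-- an element of odd order with the cycle type of the product -/
theorem pr_of_chk (K : Cover (Fin 11) C) {a b : W} {ka kb kc : ℕ} (h : chkW a b ka kb kc = true) (h6a : ka.Coprime 6)
    (h6b : kb.Coprime 6) (hkc : Odd kc) {y : C} {n : ℕ} (hn : Odd n) (hy : y ^ n = 1)
    (ht : (K.π y).cycleType = (wp (a ++ b)).cycleType) : Pr 6 y := by
  obtain ⟨ρ, hρ⟩ := isConj_iff.1 (Perm.isConj_iff_cycleType_eq.2 ht)
  obtain ⟨e⟩ := exists_eval (K.congr ρ)
  obtain ⟨h1, h2, h3⟩ := chk_prod e h h6a h6b
  have h4 : (K.congr ρ).π y = wp (a ++ b) := by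
    rw [← hρ]
    show ρ.permCongr (K.π y) = ρ * K.π y * ρ⁻¹
    ext x
    rfl
  have h5 : y = e.val (a ++ b) := by
    refine (K.congr ρ).odd_lift_unique (hn.mul hkc) ?_ ?_ (h4.trans h3.symm)
    · rw [pow_mul, hy, one_pow]
    · rw [mul_comm, pow_mul, h2, one_pow]
  rw [h5]
  exact h1

end

def a3 : W := [(3, 0), (3, 4), (4, 1), (1, 2)]
def b3 : W := [(3, 0), (3, 2), (2, 1), (1, 4)]
def a33 : W := [(2, 1), (2, 3), (3, 4), (4, 5)]
def b33 : W := [(3, 0), (3, 4), (4, 1), (1, 2)]
def a333 : W := [(5, 0), (5, 7), (7, 8), (8, 1), (1, 6), (6, 4)]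
def b333 : W := [(8, 0), (8, 1), (1, 3), (3, 4), (4, 7), (7, 2)]
def a53 : W := [(7, 0), (7, 2), (2, 1), (1, 4), (4, 5), (5, 3)]
def b53 : W := [(1, 0), (1, 6), (6, 7), (7, 3), (3, 4), (4, 5)]
def a533 : W := [(1, 0), (1, 7), (7, 4), (4, 2)]
def b533 : W := [(1, 10), (10, 6), (6, 8), (8, 2), (3, 5), (5, 7), (7, 9), (9, 4)]
def a9 : W := [(3, 0), (3, 1), (1, 6), (6, 7), (7, 2), (2, 4)]
def b9 : W := [(1, 0), (1, 6), (6, 5), (5, 7), (7, 8), (8, 2)]
def ai : W := [(2, 1), (2, 5), (5, 6), (6, 7)]
def bi : W := [(7, 0), (7, 4), (4, 6), (6, 2), (2, 3), (3, 1)]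

theorem c3 : chkW a3 b3 5 5 3 = true := by decide +kernel
theorem c33 : chkW a33 b33 5 5 3 = true := by decide +kernel
theorem c333 : chkW a333 b333 7 7 3 = true := by decide +kernel
theorem c53 : chkW a53 b53 7 7 15 = true := by decide +kernel
theorem c533 : chkW a533 b533 5 5 15 = true := by decide +kernel
theorem c9 : chkW a9 b9 7 7 9 = true := by decide +kernel
theorem ci : chkW ai bi 5 7 2 = true := by decide +kernel

theorem t3 : (wp (a3 ++ b3)).cycleType = {3} := by decide +kernel
theorem t33 : (wp (a33 ++ b33)).cycleType = {3, 3} := by decide +kernel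
theorem t333 : (wp (a333 ++ b333)).cycleType = {3, 3, 3} := by decide +kernel
theorem t53 : (wp (a53 ++ b53)).cycleType = {3, 5} := by decide +kernel
theorem t533 : (wp (a533 ++ b533)).cycleType = {3, 3, 5} := by decide +kernel
theorem t9 : (wp (a9 ++ b9)).cycleType = {9} := by decide +kernel
theorem ti : wp (ai ++ bi) ≠ 1 := by decide +kernel

section

variable {C : Type*} [Group C] (K : Cover (Fin 11) C)

/-- elements of odd order with `π y ^ 5 = 1` -/
theorem pow_five {y : C} {n : ℕ} (hn : Odd n) (hy : y ^ n = 1) (h : K.π y ^ 5 = 1) : y ^ 5 = 1 := by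
  refine K.odd_lift_unique (n := n) hn ?_ (one_pow n) ?_
  · rw [← pow_mul, mul_comm, pow_mul, hy, one_pow]
  · rw [map_pow, h, map_one]

theorem pr_five {y : C} {n : ℕ} (hn : Odd n) (hy : y ^ n = 1) (h : ∀ m ∈ (K.π y).cycleType, m = 5) : Pr 6 y := by
  have h1 : K.π y ^ 5 = 1 := by
    rw [← orderOf_dvd_iff_pow_eq_one, ← Perm.lcm_cycleType, Multiset.lcm_dvd]
    intro m hm
    rw [h m hm]
  exact Pr.of_coprime (Nat.Coprime.of_dvd_left (orderOf_dvd_of_pow_eq_one (pow_five K hn hy h1)) (by decide))

/-- **the elements of odd order all whose cycles have length 3, 5 or 9** -/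
theorem pr_odd {y : C} {n : ℕ} (hn : Odd n) (hy : y ^ n = 1)
    (h : ∀ m ∈ (K.π y).cycleType, m = 3 ∨ m = 5 ∨ m = 9) : Pr 6 y := by
  have hm : (K.π y).cycleType = Multiset.replicate ((K.π y).cycleType.count 3) 3 +
      Multiset.replicate ((K.π y).cycleType.count 5) 5 + Multiset.replicate ((K.π y).cycleType.count 9) 9 := by
    ext n
    rw [Multiset.count_add, Multiset.count_add, Multiset.count_replicate, Multiset.count_replicate,
      Multiset.count_replicate]
    by_cases hn : n ∈ (K.π y).cycleType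
    · rcases h n hn with rfl | rfl | rfl <;> simp
    · rw [Multiset.count_eq_zero_of_notMem hn]
      symm
      rw [Nat.add_eq_zero_iff, Nat.add_eq_zero_iff]
      refine ⟨⟨?_, ?_⟩, ?_⟩
      · split_ifs with h1
        · subst h1; exact Multiset.count_eq_zero_of_notMem hn
        · rfl
      · split_ifs with h1
        · subst h1; exact Multiset.count_eq_zero_of_notMem hn
        · rfl
      · split_ifs with h1
        · subst h1; exact Multiset.count_eq_zero_of_notMem hn
        · rfl
  have hs : (K.π y).cycleType.sum ≤ 11 := by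
    rw [(K.π y).sum_cycleType]
    exact (Finset.card_le_univ _).trans (by simp)
  generalize (K.π y).cycleType.count 3 = a at hm
  generalize (K.π y).cycleType.count 5 = b at hm
  generalize (K.π y).cycleType.count 9 = c at hm
  have hs' := hs
  rw [hm, Multiset.sum_add, Multiset.sum_add, Multiset.sum_replicate, Multiset.sum_replicate, Multiset.sum_replicate,
    smul_eq_mul, smul_eq_mul, smul_eq_mul] at hs'
  have hc : c ≤ 1 := by omega
  have hb : b ≤ 2 := by omega
  have ha : a ≤ 3 := by omega
  interval_cases c <;> interval_cases b <;> interval_cases a <;> first | omega | skip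
  · refine pr_five K hn hy fun m hm' => ?_
    rw [hm] at hm'
    simp at hm'
  · exact pr_of_chk K c3 (by decide) (by decide) (by decide) hn hy (hm.trans (by rw [t3]; decide))
  · exact pr_of_chk K c33 (by decide) (by decide) (by decide) hn hy (hm.trans (by rw [t33]; decide))
  · exact pr_of_chk K c333 (by decide) (by decide) (by decide) hn hy (hm.trans (by rw [t333]; decide))
  · refine pr_five K hn hy fun m hm' => ?_
    rw [hm] at hm'
    simpa using hm'
  · exact pr_of_chk K c53 (by decide) (by decide) (by decide) hn hy (hm.trans (by rw [t53]; decide))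
  · exact pr_of_chk K c533 (by decide) (by decide) (by decide) hn hy (hm.trans (by rw [t533]; decide))
  · refine pr_five K hn hy fun m hm' => ?_
    rw [hm] at hm'
    simpa using hm'
  · exact pr_of_chk K c9 (by decide) (by decide) (by decide) hn hy (hm.trans (by rw [t9]; decide))

include K in
/-- **a noncentral involution which is a product of two elements of order prime to 6** -/
theorem exists_inv : ∃ i : C, i * i = 1 ∧ i ≠ 1 ∧ Pr 6 i := by
  obtain ⟨e⟩ := exists_eval K
  obtain ⟨h1, h2, h3⟩ := chk_prod e ci (by decide) (by decide)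
  refine ⟨_, by rw [← pow_two]; exact h2, fun h => ?_, h1⟩
  rw [h, map_one] at h3
  exact ti h3.symm

end

end Cfsg.Agent.H701.Pw.LyWord
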